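import Cfsg.Agent.H980.RB.TraceQ

/-!
# Elements which centralise a long root group (S2452, `F₄(q)`, step 3; helper980)

* `Hei X Q` : `Q` is a Heisenberg group with centre `X.range`;
* `ratio_cent` : `g` centralises `X`, normalises `Q`, `|{x ∈ Q : [x, g] ∈ X}| ≤ s² |Q|`:
  `‖tr g‖ ≤ dim V^X + (dim V - dim V^X) s`;
* `finrank_X_le` : `‖tr x‖ ≤ r dim V` on `X ∖ 1`: `dim V^X ≤ (1 / q + (1 - 1 / q) r) dim V`;
* `step3` : `‖tr g‖ ≤ (c + (1 - c) s) dim V`, `c = 1 / q + (1 - 1 / q) r`.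
-/

set_option autoImplicit false

namespace Cfsg.Agent.H980.RB

open Module

variable {G : Type*} [Group G] {V : Type*} [AddCommGroup V] [Module ℂ V] {F : Type*} [AddCommGroup F]

/-- a Heisenberg group `Q` with centre `X.range` -/
structure Hei (X : Multiplicative F →* G) (Q : Subgroup G) : Prop where
  mem : ∀ t, X t ∈ Q
  cen : ∀ q ∈ Q, ∀ t, q * X t = X t * q
  com : ∀ q ∈ Q, ∀ q' ∈ Q, q * q' * q⁻¹ * q'⁻¹ ∈ X.range
  nd : ∀ q ∈ Q, q ∉ X.range → ∀ t : F, ∃ q' ∈ Q, q' * q * q'⁻¹ * q⁻¹ = X (Multiplicative.ofAdd t)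

variable {X : Multiplicative F →* G} {Q : Subgroup G}

theorem mem_cent {g : G} (h : ∀ t, g * X t = X t * g) : g ∈ Subgroup.centralizer (X.range : Set G) := by
  rw [Subgroup.mem_centralizer_iff]
  rintro _ ⟨t, rfl⟩
  exact (h t).symm

theorem of_mem_cent {g : G} (h : g ∈ Subgroup.centralizer (X.range : Set G)) (t : Multiplicative F) : g * X t = X t * g :=
  (Subgroup.mem_centralizer_iff.1 h _ ⟨t, rfl⟩).symm

theorem X_mem (h : Hei X Q) (t : Multiplicative F) : X t ∈ Subgroup.centralizer (X.range : Set G) :=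
  mem_cent fun s => h.cen _ (h.mem t) s

theorem Q_le (h : Hei X Q) : Q ≤ Subgroup.centralizer (X.range : Set G) := fun q hq => mem_cent fun t => h.cen q hq t

/-- `X` in its centraliser -/
def XP (h : Hei X Q) : Multiplicative F →* ↥(Subgroup.centralizer (X.range : Set G)) :=
  X.codRestrict _ (X_mem h)

theorem XP_cen (h : Hei X Q) (t : Multiplicative F) (g : ↥(Subgroup.centralizer (X.range : Set G))) :
    g * XP h t = XP h t * g := Subtype.ext (of_mem_cent g.2 t)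

theorem mem_XP (h : Hei X Q) (g : ↥(Subgroup.centralizer (X.range : Set G))) :
    g ∈ (XP h).range ↔ (g : G) ∈ X.range := by
  constructor
  · rintro ⟨t, rfl⟩
    exact ⟨t, rfl⟩
  · rintro ⟨t, ht⟩
    exact ⟨t, Subtype.ext ht⟩

theorem XP_com (h : Hei X Q) : ∀ q ∈ Q.subgroupOf (Subgroup.centralizer (X.range : Set G)),
    ∀ q' ∈ Q.subgroupOf (Subgroup.centralizer (X.range : Set G)), q * q' * q⁻¹ * q'⁻¹ ∈ (XP h).range :=
  fun q hq q' hq' => (mem_XP h _).2 (h.com q hq q' hq')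

theorem XP_nd (h : Hei X Q) : ∀ q ∈ Q.subgroupOf (Subgroup.centralizer (X.range : Set G)), q ∉ (XP h).range →
    ∀ t : F, ∃ q' ∈ Q.subgroupOf (Subgroup.centralizer (X.range : Set G)),
      q' * q * q'⁻¹ * q⁻¹ = XP h (Multiplicative.ofAdd t) := by
  intro q hq hqX t
  obtain ⟨q', hq', h1⟩ := h.nd q hq (fun h2 => hqX ((mem_XP h q).2 h2)) t
  exact ⟨⟨q', Q_le h hq'⟩, hq', Subtype.ext h1⟩

theorem XP_norm {g : G} (hgX : ∀ t, g * X t = X t * g) (hg : ∀ q, q ∈ Q ↔ g * q * g⁻¹ ∈ Q) :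
    ∀ q, q ∈ Q.subgroupOf (Subgroup.centralizer (X.range : Set G)) ↔
      (⟨g, mem_cent hgX⟩ : ↥(Subgroup.centralizer (X.range : Set G))) * q *
        (⟨g, mem_cent hgX⟩ : ↥(Subgroup.centralizer (X.range : Set G)))⁻¹ ∈
          Q.subgroupOf (Subgroup.centralizer (X.range : Set G)) := fun q => hg q

/-- the restriction of the representation -/
def resC (ρ : Representation ℂ G V) (X : Multiplicative F →* G) :
    Representation ℂ ↥(Subgroup.centralizer (X.range : Set G)) V :=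
  MonoidHom.comp ρ (Subgroup.centralizer (X.range : Set G)).subtype

theorem resC_apply (ρ : Representation ℂ G V) (X : Multiplicative F →* G)
    (g : ↥(Subgroup.centralizer (X.range : Set G))) : resC ρ X g = ρ (g : G) := rfl

theorem isoM_resC (ρ : Representation ℂ G V) (h : Hei X Q) (ψ : AddChar F ℂ) :
    isoM (resC ρ X) (XP h) ψ = isoM ρ X ψ := rfl

theorem card_sub (h : Hei X Q) {g : G} (hgX : ∀ t, g * X t = X t * g) :
    Nat.card {x : ↥(Q.subgroupOf (Subgroup.centralizer (X.range : Set G))) //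
      (x : ↥(Subgroup.centralizer (X.range : Set G))) * ⟨g, mem_cent hgX⟩ *
        (x : ↥(Subgroup.centralizer (X.range : Set G)))⁻¹ * (⟨g, mem_cent hgX⟩ : ↥(Subgroup.centralizer (X.range : Set G)))⁻¹ ∈
        (XP h).range} = Nat.card {x : ↥Q // (x : G) * g * (x : G)⁻¹ * g⁻¹ ∈ X.range} := by
  refine Nat.card_congr ?_
  refine Equiv.subtypeEquiv (Subgroup.subgroupOfEquivOfLe (Q_le h)).toEquiv fun x => ?_
  rw [mem_XP]
  rfl

variable [Fintype F] [Finite G] [FiniteDimensional ℂ V]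

omit [Fintype F] [Finite G] in
theorem fix_le (ρ : Representation ℂ G V) (h : Hei X Q) (g : ↥(Subgroup.centralizer (X.range : Set G))) :
    finrank ℂ ↥(fixM (resC ρ X) (((XP h).range : Set ↥(Subgroup.centralizer (X.range : Set G))) ∪
      comSet (Q.subgroupOf (Subgroup.centralizer (X.range : Set G))) g)) ≤ finrank ℂ ↥(isoM ρ X 1) := by
  refine Submodule.finrank_mono fun v hv => ?_
  intro t
  rw [AddChar.one_apply, one_smul]
  exact hv _ (Or.inl ⟨Multiplicative.ofAdd t, rfl⟩)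

/-- **`g` centralises `X`.** -/
theorem ratio_cent (ρ : Representation ℂ G V) (h : Hei X Q) {g : G} (hgX : ∀ t, g * X t = X t * g)
    (hg : ∀ q, q ∈ Q ↔ g * q * g⁻¹ ∈ Q) {s : ℝ} (hs : 0 ≤ s)
    (hK : (Nat.card {x : ↥Q // (x : G) * g * (x : G)⁻¹ * g⁻¹ ∈ X.range} : ℝ) ≤ s ^ 2 * Nat.card Q) :
    ‖LinearMap.trace ℂ V (ρ g)‖ ≤ finrank ℂ ↥(isoM ρ X 1) + (finrank ℂ V - finrank ℂ ↥(isoM ρ X 1)) * s := by
  have h1 := ratioQ (resC ρ X) (XP_cen h) (fun t => show X t ∈ Q from h.mem t) (XP_com h) (XP_nd h) (XP_norm hgX hg) hs (by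
    rw [card_sub h hgX, Nat.card_congr (Subgroup.subgroupOfEquivOfLe (Q_le h)).toEquiv]
    exact hK)
  have h2 := fix_le ρ h ⟨g, mem_cent hgX⟩
  rw [isoM_resC] at h1
  have h3 : (finrank ℂ ↥(fixM (resC ρ X) (((XP h).range : Set ↥(Subgroup.centralizer (X.range : Set G))) ∪
      comSet (Q.subgroupOf (Subgroup.centralizer (X.range : Set G))) ⟨g, mem_cent hgX⟩)) : ℝ) ≤
        finrank ℂ ↥(isoM ρ X 1) := by exact_mod_cast h2
  exact h1.trans (by linarith)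

/-- **`g ∈ Q ∖ X`.** -/
theorem ratio_mem (ρ : Representation ℂ G V) (h : Hei X Q) {g : G} (hgQ : g ∈ Q) (hgX : g ∉ X.range) :
    ‖LinearMap.trace ℂ V (ρ g)‖ ≤ finrank ℂ ↥(isoM ρ X 1) := by
  have hc := h.cen g hgQ
  have h1 := ratioQ_zero (ρ := resC ρ X) (Q := Q.subgroupOf (Subgroup.centralizer (X.range : Set G)))
    (g := (⟨g, mem_cent hc⟩ : ↥(Subgroup.centralizer (X.range : Set G)))) (XP_cen h) (XP_com h)
    (XP_norm hc fun q => ⟨fun hq => Q.mul_mem (Q.mul_mem hgQ hq) (Q.inv_mem hgQ), fun hq => by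
      have h2 := Q.mul_mem (Q.mul_mem (Q.inv_mem hgQ) hq) hgQ
      have h3 : g⁻¹ * (g * q * g⁻¹) * g = q := by group
      rwa [h3] at h2⟩) (fun t => by
      obtain ⟨q', hq', e⟩ := h.nd g hgQ hgX t
      exact ⟨⟨q', Q_le h hq'⟩, Subtype.ext e⟩)
  have h2 := fix_le ρ h ⟨g, mem_cent hc⟩
  exact h1.trans (by exact_mod_cast h2)

omit [Finite G] in
/-- the dimension of the fixed space of `X` -/
theorem finrank_X_le (ρ : Representation ℂ G V) (h : Hei X Q) {r : ℝ}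
    (hr : ∀ t : F, t ≠ 0 → ‖LinearMap.trace ℂ V (ρ (X (Multiplicative.ofAdd t)))‖ ≤ r * finrank ℂ V) :
    (finrank ℂ ↥(isoM ρ X 1) : ℝ) ≤
      ((Fintype.card F : ℝ)⁻¹ + (1 - (Fintype.card F : ℝ)⁻¹) * r) * finrank ℂ V := by
  classical
  have h1 := finrank_isoQ (resC ρ X) (XP_cen h)
  rw [isoM_resC] at h1
  have hF : (0 : ℝ) < Fintype.card F := by exact_mod_cast Fintype.card_pos
  have h2 := congrArg norm h1
  rw [Complex.norm_natCast, norm_mul, norm_inv, Complex.norm_natCast] at h2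
  rw [h2, ← Finset.add_sum_erase _ _ (Finset.mem_univ (0 : F))]
  have h3 : ‖LinearMap.trace ℂ V (resC ρ X (XP h (Multiplicative.ofAdd (0 : F))))‖ = finrank ℂ V := by
    rw [ofAdd_zero, map_one, map_one, LinearMap.trace_one, Complex.norm_natCast]
  have h4 : ‖∑ t ∈ Finset.univ.erase (0 : F), LinearMap.trace ℂ V (resC ρ X (XP h (Multiplicative.ofAdd t)))‖ ≤
      (Fintype.card F - 1 : ℝ) * (r * finrank ℂ V) := by
    refine (norm_sum_le _ _).trans ?_
    have h6 : ∀ t ∈ Finset.univ.erase (0 : F), ‖LinearMap.trace ℂ V (resC ρ X (XP h (Multiplicative.ofAdd t)))‖ ≤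
        r * finrank ℂ V := fun t ht => hr t (Finset.ne_of_mem_erase ht)
    refine (Finset.sum_le_card_nsmul _ _ _ h6).trans ?_
    rw [nsmul_eq_mul, Finset.card_erase_of_mem (Finset.mem_univ _), Finset.card_univ, Nat.cast_sub Fintype.card_pos,
      Nat.cast_one]
  have h5 := (norm_add_le _ _).trans (add_le_add h3.le h4)
  refine (mul_le_mul_of_nonneg_left h5 (by positivity)).trans (le_of_eq ?_)
  field_simp

/-- **Step 3.** -/
theorem step3 (ρ : Representation ℂ G V) (h : Hei X Q) {r s : ℝ} (hr1 : r ≤ 1) (hs0 : 0 ≤ s) (hs1 : s ≤ 1)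
    (hr : ∀ t : F, t ≠ 0 → ‖LinearMap.trace ℂ V (ρ (X (Multiplicative.ofAdd t)))‖ ≤ r * finrank ℂ V)
    {g : G} (hg1 : g ≠ 1) (hgX : ∀ t, g * X t = X t * g) (hg : ∀ q, q ∈ Q ↔ g * q * g⁻¹ ∈ Q)
    (hK : g ∉ Q → (Nat.card {x : ↥Q // (x : G) * g * (x : G)⁻¹ * g⁻¹ ∈ X.range} : ℝ) ≤ s ^ 2 * Nat.card Q) :
    ‖LinearMap.trace ℂ V (ρ g)‖ ≤ (1 - (1 - (Fintype.card F : ℝ)⁻¹) * (1 - r) * (1 - s)) * finrank ℂ V := by
  have hF : (1 : ℝ) ≤ Fintype.card F := by exact_mod_cast Fintype.card_pos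
  have hF1 : (Fintype.card F : ℝ)⁻¹ ≤ 1 := inv_le_one_of_one_le₀ hF
  have hF0 : (0 : ℝ) ≤ (Fintype.card F : ℝ)⁻¹ := by positivity
  have hd0 : (0 : ℝ) ≤ finrank ℂ V := Nat.cast_nonneg _
  have hD := finrank_X_le ρ h hr
  set a : ℝ := (Fintype.card F : ℝ)⁻¹ with ha
  set D : ℝ := ((finrank ℂ ↥(isoM ρ X 1) : ℕ) : ℝ) with hDd
  set d : ℝ := ((finrank ℂ V : ℕ) : ℝ) with hdd
  have e1 : 0 ≤ (1 - a) * (1 - r) * s * d :=
    mul_nonneg (mul_nonneg (mul_nonneg (by linarith) (by linarith)) hs0) hd0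
  have e2 : (1 - (1 - a) * (1 - r) * (1 - s)) * d = (a + (1 - a) * r) * d + (1 - a) * (1 - r) * s * d := by ring
  by_cases hQ : g ∈ Q
  · by_cases hX : g ∈ X.range
    · obtain ⟨t, rfl⟩ := hX
      have ht : Multiplicative.toAdd t ≠ 0 := by
        intro h0
        apply hg1
        have : t = 1 := h0
        rw [this, map_one]
      have h1 := hr _ ht
      rw [ofAdd_toAdd] at h1
      have e3 : 0 ≤ a * (1 - r) * d := mul_nonneg (mul_nonneg hF0 (by linarith)) hd0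
      have e4 : (a + (1 - a) * r) * d = r * d + a * (1 - r) * d := by ring
      linarith
    · have h1 := ratio_mem ρ h hQ hX
      linarith
  · have h1 := ratio_cent ρ h hgX hg hs0 (hK hQ)
    have h2 : D + (d - D) * s = D * (1 - s) + d * s := by ring
    have h3 : D * (1 - s) ≤ ((a + (1 - a) * r) * d) * (1 - s) := mul_le_mul_of_nonneg_right hD (by linarith)
    have h4 : ((a + (1 - a) * r) * d) * (1 - s) + d * s = (1 - (1 - a) * (1 - r) * (1 - s)) * d := by ring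
    linarith

/-- **`g` centralises `X`, `g ∉ Q`**, with a bound `B` on `Q ∖ X`. -/
theorem ratio_out (ρ : Representation ℂ G V) (h : Hei X Q) {g : G} (hgX : ∀ t, g * X t = X t * g)
    (hg : ∀ q, q ∈ Q ↔ g * q * g⁻¹ ∈ Q) {B s : ℝ} (hB0 : 0 ≤ B)
    (hB : ∀ q ∈ Q, q ∉ X.range → ‖LinearMap.trace ℂ V (ρ q)‖ ≤ B) (hs0 : 0 ≤ s) (hs1 : s ≤ 1)
    (hK : (Nat.card {x : ↥Q // (x : G) * g * (x : G)⁻¹ * g⁻¹ ∈ X.range} : ℝ) ≤ s ^ 2 * Nat.card Q) :
    ‖LinearMap.trace ℂ V (ρ g)‖ ≤ B + s * finrank ℂ V := by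
  have h1 := tr_fixQ (resC ρ X) (XP_cen h) (fun t => show X t ∈ Q from h.mem t) (XP_com h) (XP_nd h) (XP_norm hgX hg) hB0
    (fun q hq hqX => hB q hq fun h2 => hqX ((mem_XP h q).2 h2)) hs0 (by
    rw [card_sub h hgX, Nat.card_congr (Subgroup.subgroupOfEquivOfLe (Q_le h)).toEquiv]
    exact hK)
  rw [isoM_resC] at h1
  refine h1.trans ?_
  have hD0 : (0 : ℝ) ≤ ((finrank ℂ ↥(isoM ρ X 1) : ℕ) : ℝ) := Nat.cast_nonneg _
  generalize ((finrank ℂ ↥(isoM ρ X 1) : ℕ) : ℝ) = D at hD0 ⊢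
  have h2 : 0 ≤ D * (s * (1 - s)) := mul_nonneg hD0 (mul_nonneg hs0 (by linarith))
  have h3 : s ^ 2 * D + B + (finrank ℂ V - D) * s = B + s * finrank ℂ V - D * (s * (1 - s)) := by ring
  linarith

end Cfsg.Agent.H980.RB
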